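/-
Fischer's groups: basic reductions.
-/
import Cfsg.Agent.H6.InvCount
import Cfsg.Agent.H6.WClos
import Cfsg.Agent.H9.PSolv
import Cfsg.Agent.H10.PComp
import Cfsg.Agent.H7.PairGen2
import Cfsg.Agent.FT

set_option autoImplicit false
set_option linter.style.haveILetI false
set_option linter.unusedSectionVars false

open Cfsg Subgroup
open scoped Pointwise

namespace Cfsg.Agent.FG

open Cfsg.Agent.H4

variable {G : Type*} [Group G] [Finite G] {p : ℕ} [hp : Fact p.Prime]

/-- centralizers of elements of order `p` are `p`-nilpotent -/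
def HB (p : ℕ) (G : Type*) [Group G] : Prop :=
  ∀ u : G, orderOf u = p → HasNormalPComplement p (centralizer ({u} : Set G))

/-- pairs of elements of order `p` generate `p`-solvable groups -/
def HC (p : ℕ) (G : Type*) [Group G] : Prop :=
  ∀ x y : G, orderOf x = p → orderOf y = p → IsPSolvable p (closure ({x, y} : Set G))

/-- elements of order `p` central in every `p`-subgroup containing them -/
def Cz (p : ℕ) (d : G) : Prop :=
  orderOf d = p ∧ ∀ Q : Subgroup G, IsPGroup p Q → d ∈ Q → ∀ w ∈ Q, Commute d w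

theorem ne_one_of_order {x : G} (h : orderOf x = p) : x ≠ 1 := fun e => by
  rw [e, orderOf_one] at h; exact hp.out.one_lt.ne h

theorem eq_one_of_pp {x : G} (h1 : ∃ k, orderOf x = p ^ k) (h2 : (orderOf x).Coprime p) : x = 1 := by
  obtain ⟨k, hk⟩ := h1
  rcases k with _ | k
  · exact orderOf_eq_one_iff.1 (by simpa using hk)
  · rw [hk] at h2
    exact absurd (Nat.Coprime.eq_one_of_dvd h2.symm (dvd_pow_self p k.succ_ne_zero)) hp.out.one_lt.ne'

theorem orderOf_cj (g x : G) : orderOf (g * x * g⁻¹) = orderOf x :=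
  (H6.orderOf_eq_of_isConj (H11.isConj_conj g x)).symm

theorem exists_pow_coprime (n : G) : ∃ k, (orderOf (n ^ p ^ k)).Coprime p := by
  obtain ⟨k, m, hm, h⟩ := Nat.exists_eq_pow_mul_and_not_dvd (orderOf_pos n).ne' p hp.out.one_lt.ne'
  refine ⟨k, Nat.Coprime.coprime_dvd_left (orderOf_dvd_of_pow_eq_one (n := m) ?_)
    ((Nat.Prime.coprime_iff_not_dvd hp.out).2 hm).symm⟩
  rw [← pow_mul, ← h, pow_orderOf_eq_one]

theorem HB.mul (h : HB p G) {u a b : G} (hu : orderOf u = p) (ha : Commute a u) (hb : Commute b u)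
    (h1 : (orderOf a).Coprime p) (h2 : (orderOf b).Coprime p) : (orderOf (a * b)).Coprime p := by
  have := H3.hasNormalPComplement_iff_mul.1 (h u hu) ⟨a, H11.mem_cent1.2 ha⟩ ⟨b, H11.mem_cent1.2 hb⟩
    (by rwa [← orderOf_coe]) (by rwa [← orderOf_coe])
  rwa [← orderOf_coe] at this

theorem HB.comm (h : HB p G) {u n w : G} (hu : orderOf u = p) (hn : Commute n u) (hw : Commute w u)
    (h1 : (orderOf n).Coprime p) (h2 : ∃ k, orderOf (n * w * n⁻¹ * w⁻¹) = p ^ k) : Commute n w := by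
  have h3 := h.mul hu hn ((hw.mul_left hn.inv_left).mul_left hw.inv_left) h1
    (by rwa [orderOf_cj, orderOf_inv])
  rw [← mul_assoc, ← mul_assoc] at h3
  have h4 := eq_one_of_pp h2 h3
  rwa [mul_inv_eq_one, mul_inv_eq_iff_eq_mul] at h4

theorem HB.comm' (h : HB p G) {u n w : G} {Q : Subgroup G} (hQ : IsPGroup p Q)
    (hu : orderOf u = p) (hn : Commute n u) (hw : Commute w u) (h1 : (orderOf n).Coprime p)
    (hwQ : w ∈ Q) (hnQ : n * w * n⁻¹ ∈ Q) : Commute n w :=
  h.comm hu hn hw h1 (H6.exists_orderOf_eq_of_mem hp.out hQ (mul_mem hnQ (inv_mem hwQ)))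

theorem HB.of_injective {H : Type*} [Group H] (h : HB p G) (f : H →* G) (hf : Function.Injective f) :
    HB p H := fun u hu => by
  haveI := Finite.of_injective f hf
  refine H3.hasNormalPComplement_iff_mul.2 fun a b h1 h2 => ?_
  have e : ∀ c : centralizer ({u} : Set H), orderOf (f c) = orderOf c := fun c => by
    rw [orderOf_injective f hf, orderOf_coe]
  have := h.mul (u := f u) (by rwa [orderOf_injective f hf])
    (Commute.map (H11.mem_cent1.1 a.2 :) f) (Commute.map (H11.mem_cent1.1 b.2 :) f)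
    (by rwa [e]) (by rwa [e])
  rwa [← map_mul, ← coe_mul, e] at this

theorem HC.of_injective {H : Type*} [Group H] (h : HC p G) (f : H →* G) (hf : Function.Injective f) :
    HC p H := fun x y hx hy => by
  have h1 := h (f x) (f y) (by rwa [orderOf_injective f hf]) (by rwa [orderOf_injective f hf])
  have e : closure ({f x, f y} : Set G) = (closure ({x, y} : Set H)).map f := by
    rw [MonoidHom.map_closure, Set.image_pair]
  rw [e] at h1
  exact H9.isPSolvable_of_injective (f.subgroupMap _) (fun a b hab =>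
    Subtype.ext (hf (congrArg Subtype.val hab))) h1

theorem Cz.of_injective {H : Type*} [Group H] (f : H →* G) (hf : Function.Injective f) {d : H}
    (h : Cz p (f d)) : Cz p d :=
  ⟨by rw [← orderOf_injective f hf, h.1], fun Q hQ hd w hw => hf (by
    rw [map_mul, map_mul]
    exact h.2 (Q.map f) (hQ.map f) (mem_map_of_mem f hd) _ (mem_map_of_mem f hw))⟩

theorem Cz.conj {d : G} (h : Cz p d) (g : G) : Cz p (g * d * g⁻¹) :=
  Cz.of_injective (MulAut.conj g⁻¹).toMonoidHom (MulAut.conj g⁻¹).injective (by simpa [mul_assoc] using h)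

theorem hb_of_sylow (P : Sylow p G) (hb : ∀ x ∈ (P : Subgroup G), orderOf x = p →
    HasNormalPComplement p ↥(centralizer ({x} : Set G))) : HB p G := fun u hu => by
  obtain ⟨g, hg⟩ := H6.exists_conj_mem_sylow P (z := u) ⟨1, by rw [hu, pow_one]⟩
  refine H3.hasNormalPComplement_of_injective
    (((MulAut.conj g).toMonoidHom.comp (Subgroup.subtype _)).codRestrict _ fun a => ?_) (fun a b hab => ?_)
    (hb _ hg (by rw [orderOf_cj, hu]))
  · have := H11.mem_cent1.1 a.2
    refine H11.mem_cent1.2 ?_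
    change g * a * g⁻¹ * _ = _ * (g * a * g⁻¹)
    rw [conj_mul, conj_mul, this]
  · exact Subtype.ext ((MulAut.conj g).injective (congrArg Subtype.val hab))

/-- fusion control by the normalizer -/
def HA (P : Sylow p G) : Prop := ∀ x ∈ (P : Subgroup G), ∀ y ∈ (P : Subgroup G),
  (∃ g : G, g * x * g⁻¹ = y) → ∃ n ∈ normalizer ((P : Subgroup G) : Set G), n * x * n⁻¹ = y

theorem HA.cent {P : Sylow p G} (h : HA P) {x g : G} (hx : x ∈ (P : Subgroup G))
    (hz : ∀ w ∈ (P : Subgroup G), Commute x w) (hg : g * x * g⁻¹ ∈ (P : Subgroup G)) :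
    ∀ w ∈ (P : Subgroup G), Commute (g * x * g⁻¹) w := fun w hw => by
  obtain ⟨n, hn, e⟩ := h x hx _ hg ⟨g, rfl⟩
  have h1 := hz _ ((mem_normalizer_iff''.1 hn w).1 hw)
  rw [← e]
  have := h1.map (MulAut.conj n)
  simpa [mul_assoc] using this

theorem HA.cz {P : Sylow p G} (h : HA P) {x : G} (hx : x ∈ (P : Subgroup G)) (ho : orderOf x = p)
    (hz : ∀ w ∈ (P : Subgroup G), Commute x w) : Cz p x := by
  refine ⟨ho, fun Q hQ hxQ w hw => ?_⟩
  obtain ⟨T, hT⟩ := hQ.exists_le_sylow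
  obtain ⟨g, rfl⟩ := MulAction.exists_smul_eq G P T
  have e : ∀ a ∈ Q, g⁻¹ * a * g⁻¹⁻¹ ∈ (P : Subgroup G) := fun a ha => by
    simpa [Sylow.coe_subgroup_smul, mem_pointwise_smul_iff_inv_smul_mem] using hT ha
  have := (h.cent hx hz (e x hxQ) _ (e w hw)).map (MulAut.conj g)
  simpa [mul_assoc] using this

/-- the key lemma -/
theorem compl_of_cz {X : Type*} [Group X] [Finite X] (hX : IsPSolvable p X) {x y : X}
    (hx : Cz p x) (hy : Cz p y) (hxy : closure ({x, y} : Set X) = ⊤) : HasNormalPComplement p X := by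
  let f := QuotientGroup.mk' (pPrimeCore p X)
  have hf : Function.Surjective f := QuotientGroup.mk'_surjective _
  have h1 : ∀ {d : X}, Cz p d → f d ∈ pCore p _ := fun {d} hd => by
    obtain ⟨Q, hQ⟩ := (IsPGroup.of_card (n := 1) (G := zpowers d) (by
      rw [Nat.card_zpowers, hd.1, pow_one])).exists_le_sylow
    refine H9.centralizer_pCore_le_of_isPSolvable (H9.isPSolvable_quotient hX _)
      (H1.pPrimeCore_quotient_pPrimeCore p) fun r hr => ?_
    obtain ⟨w, hw, rfl⟩ := H1.pCore_le_sylow (Q.mapSurjective hf) hr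
    exact ((hd.2 _ Q.2 (hQ (mem_zpowers d)) w hw).map f).symm
  have h2 : ∀ a, f a ∈ pCore p _ := fun a => by
    have : closure ({x, y} : Set X) ≤ (pCore p _).comap f := by
      rw [closure_le, Set.pair_subset_iff]; exact ⟨h1 hx, h1 hy⟩
    exact this (hxy ▸ mem_top a)
  have h3 : ∀ a, (orderOf a).Coprime p → a ∈ pPrimeCore p X := fun a ha =>
    (QuotientGroup.eq_one_iff a).1 (eq_one_of_pp (H6.exists_orderOf_eq_of_mem hp.out
      (H1.isPGroup_pCore p _) (h2 a)) (ha.coprime_dvd_left (orderOf_map_dvd f a)))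
  exact H3.hasNormalPComplement_iff_mul.2 fun a b ha hb => (H1.coprime_card_pPrimeCore p X).coprime_dvd_left
    (orderOf_dvd_natCard _ (mul_mem (h3 a ha) (h3 b hb)))

theorem HC.retract (h : HC p G) {x y : G} (hx : Cz p x) (hy : Cz p y) :
    ∃ (Q : Sylow p (closure ({x, y} : Set G))) (π : closure ({x, y} : Set G) →* closure ({x, y} : Set G)),
      (⟨x, subset_closure (by simp)⟩ : closure ({x, y} : Set G)) ∈ (Q : Subgroup _) ∧
      (∀ g, π g ∈ (Q : Subgroup _)) ∧ (∀ w ∈ (Q : Subgroup _), π w = w) ∧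
      (∀ g, π g = 1 ↔ ¬ p ∣ orderOf g) ∧ ∀ g z, IsPPart p g z → IsConj z (π g) := by
  let x' : closure ({x, y} : Set G) := ⟨x, subset_closure (by simp)⟩
  let y' : closure ({x, y} : Set G) := ⟨y, subset_closure (by simp)⟩
  have hx' : Cz p x' := Cz.of_injective (Subgroup.subtype _) Subtype.val_injective hx
  have h1 := compl_of_cz (h x y hx.1 hy.1) hx' (y := y')
    (Cz.of_injective (Subgroup.subtype _) Subtype.val_injective hy) (by
      apply map_injective (subtype_injective _)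
      rw [MonoidHom.map_closure, Set.image_pair, ← MonoidHom.range_eq_map, range_subtype]; rfl)
  obtain ⟨Q, hQ⟩ := (IsPGroup.of_card (n := 1) (G := zpowers x') (by
      rw [Nat.card_zpowers, hx'.1, pow_one])).exists_le_sylow
  obtain ⟨π, h2⟩ := H6.exists_retract h1 Q
  exact ⟨Q, π, hQ (mem_zpowers _), h2⟩

theorem HC.pair (h : HC p G) {x y : G} (hx : Cz p x) (hy : Cz p y) :
    ∃ y', IsConj y y' ∧ Commute x y' ∧
      ∀ i j : ℕ, ∃ z, IsPPart p (x ^ i * y ^ j) z ∧ IsConj z (x ^ i * y' ^ j) := by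
  obtain ⟨Q, π, h1, h2, h3, -, h5⟩ := h.retract hx hy
  let x' : closure ({x, y} : Set G) := ⟨x, subset_closure (by simp)⟩
  let y' : closure ({x, y} : Set G) := ⟨y, subset_closure (by simp)⟩
  refine ⟨π y', (Subgroup.subtype _).map_isConj (h5 y' y' (H6.isPPart_self hp.out
    ⟨1, by rw [← orderOf_coe, pow_one]; exact hy.1⟩)), hx.2 _ (Q.2.map (Subgroup.subtype _))
      (mem_map_of_mem _ h1) _ (mem_map_of_mem _ (h2 y')), fun i j => ?_⟩
  obtain ⟨z, hz⟩ := H6.exists_isPPart hp.out (x' ^ i * y' ^ j)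
  refine ⟨z, H6.IsPPart.coe hz, ?_⟩
  have := (Subgroup.subtype _).map_isConj (h5 _ _ hz)
  rwa [map_mul, map_pow, map_pow, h3 _ h1] at this

theorem swap {X : Type*} [Group X] [Finite X] {Q : Sylow p X} {π : X →* X}
    (h2 : ∀ g, π g ∈ (Q : Subgroup X)) (h3 : ∀ w ∈ (Q : Subgroup X), π w = w)
    (h4 : ∀ g, π g = 1 ↔ ¬ p ∣ orderOf g) (σ : MulAut X) {x y : X} (hx : x ∈ (Q : Subgroup X))
    (e1 : σ x = y) (e2 : σ y = x) : ∃ o, o * σ x * o⁻¹ = π y ∧ o * σ (π y) * o⁻¹ = x := by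
  obtain ⟨g, hg⟩ := MulAction.exists_smul_eq X (σ • Q) Q
  have h5 : ∀ w ∈ (Q : Subgroup X), (π g)⁻¹ * g * σ w * ((π g)⁻¹ * g)⁻¹ = π (σ w) := fun w hw => by
    have h6 : g * σ w * g⁻¹ ∈ (Q : Subgroup X) := by
      rw [← hg]
      exact smul_mem_pointwise_smul _ (MulAut.conj g) _ (smul_mem_pointwise_smul _ σ _ hw)
    have h7 : (π g)⁻¹ * g * σ w * ((π g)⁻¹ * g)⁻¹ = (π g)⁻¹ * (g * σ w * g⁻¹) * π g := by group
    have h8 := mul_mem (mul_mem (inv_mem (h2 g)) h6) (h2 g)
    rw [← h7] at h8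
    rw [← h3 _ h8]
    simp [h3 _ (h2 g)]
  refine ⟨(π g)⁻¹ * g, by rw [h5 x hx, e1], ?_⟩
  rw [h5 _ (h2 y), ← h3 x hx, ← e2, ← mul_inv_eq_one, ← map_inv, ← map_mul, ← map_inv, ← map_mul, h4,
    MulEquiv.orderOf_eq, ← h4]
  simp [h3 _ (h2 y)]

/-- the non-real case -/
theorem HB.sec (hb : HB p G) (hc : HC p G) (hp2 : p ≠ 2) {x t : G} (hx : Cz p x) (ht : t * t = 1)
    (hr : ¬ IsConj x x⁻¹) : ∃ z, IsPPart p (t * x) z ∧ IsConj z x := by
  have hti : t⁻¹ = t := inv_eq_of_mul_eq_one_right ht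
  have hodd : Odd p := hp.out.odd_of_ne_two hp2
  set y := t * x * t⁻¹ with hy
  have hyc : Cz p y := hx.conj t
  obtain ⟨Q, π, h1, h2, h3, h4, h5⟩ := hc.retract hx hyc
  let x' : closure ({x, y} : Set G) := ⟨x, subset_closure (by simp)⟩
  let y' : closure ({x, y} : Set G) := ⟨y, subset_closure (by simp)⟩
  have ey : t * y * t⁻¹ = x := by rw [hy, hti]; simp [← mul_assoc, ht]; simp [mul_assoc, ht]
  have htn : t ∈ normalizer (closure ({x, y} : Set G) : Set G) := by
    refine H3.mem_normalizer_of_conj_mem fun a ha => ?_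
    have : closure ({x, y} : Set G) ≤ (closure ({x, y} : Set G)).comap (MulAut.conj t).toMonoidHom := by
      rw [closure_le, Set.pair_subset_iff]
      refine ⟨y'.2, ?_⟩
      change t * y * t⁻¹ ∈ closure ({x, y} : Set G)
      rw [ey]; exact x'.2
    exact this ha
  obtain ⟨o, e1, e2⟩ := swap h2 h3 h4 (normalizerMonoidHom _ ⟨t, htn⟩) (y := y') h1 rfl (Subtype.ext ey)
  set w : G := (π y').1 with hw
  have e3 : (o * t) * x * (o * t)⁻¹ = w := by
    rw [hw, ← e1]; change _ = (o : G) * (t * x * t⁻¹) * (o : G)⁻¹; group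
  have e4 : (o * t) * w * (o * t)⁻¹ = x := by
    have := congrArg Subtype.val e2
    change (o : G) * (t * w * t⁻¹) * (o : G)⁻¹ = x at this
    refine Eq.trans ?_ this; group
  have hQ := Q.2.map (Subgroup.subtype _)
  have hxQ := mem_map_of_mem (Subgroup.subtype _) h1
  have hwQ := mem_map_of_mem (Subgroup.subtype _) (h2 y')
  have hxw : Commute x w := hx.2 _ hQ hxQ _ hwQ
  have hxp : x ^ p = 1 := by rw [← hx.1, pow_orderOf_eq_one]
  have hcw : IsConj x w := isConj_iff.2 ⟨_, e3⟩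
  have ow : orderOf (x * w) = p := orderOf_eq_prime (by
    rw [hxw.mul_pow, hxp, ← hx.1, H6.orderOf_eq_of_isConj hcw, pow_orderOf_eq_one, one_mul])
    fun e => hr (by rwa [← eq_inv_of_mul_eq_one_right e])
  set n : G := o * t
  have e5 : ∀ k : ℕ, n ^ (2 * k + 1) * x * (n ^ (2 * k + 1))⁻¹ = w := fun k => by
    induction k with
    | zero => simpa using e3
    | succ k ih =>
      calc _ = n * (n * (n ^ (2 * k + 1) * x * (n ^ (2 * k + 1))⁻¹) * n⁻¹) * n⁻¹ := by group
        _ = w := by rw [ih, e4, e3]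
  have e6 : w = x := by
    obtain ⟨k, hk⟩ := exists_pow_coprime (p := p) n
    obtain ⟨j, hj⟩ : Odd (p ^ k) := hodd.pow
    have hn : Commute n (x * w) := by
      rw [Commute, SemiconjBy, ← mul_inv_eq_iff_eq_mul, hxw.eq, ← conj_mul, e3, e4]
      exact hxw.eq.symm ▸ rfl
    have := hb.comm' hQ ow (hn.pow_left _) ((Commute.refl x).mul_right hxw) hk hxQ (by
      rw [hj, e5]; exact hwQ)
    rw [← e5 j, ← hj, this.eq, mul_inv_cancel_right]
  obtain ⟨z, hz⟩ := H6.exists_isPPart hp.out (t * x)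
  refine ⟨z, hz, ?_⟩
  obtain ⟨r, f1, f2, ⟨k, f3⟩, f4⟩ := hz
  have f5 : IsPPart p (y * x) (z ^ 2) := ⟨r ^ 2, by
    rw [← f2.mul_pow, f1, hy, hti, pow_two, mul_assoc, mul_assoc, mul_assoc], f2.pow_pow _ _,
    ⟨k, by rw [Nat.Coprime.orderOf_pow, f3]; rw [f3]; exact Nat.coprime_two_right.2 hodd.pow⟩,
    fun h => f4 (h.trans (orderOf_pow_dvd 2))⟩
  obtain ⟨z', hz'⟩ := H6.exists_isPPart hp.out (y' * x')
  have f6 : IsConj (z ^ 2) (x ^ 2) := by
    have := (Subgroup.subtype _).map_isConj (h5 _ _ hz')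
    rw [map_mul, h3 _ h1, map_mul] at this
    rw [H6.IsPPart.unique hp.out f5 (H6.IsPPart.coe hz'), pow_two]
    change IsConj (z' : G) (w * x) at this
    rwa [e6] at this
  obtain ⟨j, hj⟩ : Odd (p ^ (k + 1)) := hodd.pow
  have f7 := f6.pow (j + 1)
  rwa [← pow_mul, ← pow_mul, show 2 * (j + 1) = p ^ (k + 1) + 1 by omega, pow_succ z, pow_succ x,
    orderOf_dvd_iff_pow_eq_one.1 (f3 ▸ pow_dvd_pow p k.le_succ),
    orderOf_dvd_iff_pow_eq_one.1 (hx.1 ▸ dvd_pow_self p k.succ_ne_zero), one_mul, one_mul] at f7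

theorem case_nonreal [IsSimpleGroup G] (hG : ¬ IsMulCommutative G) (hb : HB p G) (hc : HC p G)
    (hp2 : p ≠ 2) {x : G} (hx : Cz p x) : IsConj x x⁻¹ := by
  by_contra hr
  haveI := Fintype.ofFinite G
  obtain ⟨M, hM⟩ := H6.exists_isPModular hp.out
  haveI := hM.2.1
  obtain ⟨t, ht⟩ := exists_prime_orderOf_dvd_card' (G := G) 2 (by
    by_contra h
    haveI := FT.solvable_of_odd (G := G) (Nat.odd_iff.2 (by omega))
    exact hG ⟨⟨IsSimpleGroup.comm_iff_isSolvable.2 this⟩⟩)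
  have ht2 : t * t = 1 := by rw [← pow_two, ← ht, pow_orderOf_eq_one]
  obtain ⟨χ, -, h1, h2⟩ := H6.exists_irr_of_sections hM {v | IsConj x v} (fun v hv =>
    ⟨0, by rw [← H6.orderOf_eq_of_isConj hv, hx.1]; simp⟩) ⟨x, IsConj.refl x⟩ (a := t)
    fun v hv y => by
      obtain ⟨g, rfl⟩ := isConj_iff.1 hv
      obtain ⟨z, hz, hzc⟩ := hb.sec hc hp2 (hx.conj g) (t := y * t * y⁻¹) (by
        rw [conj_mul, ht2]; simp) fun h => hr ((hv.trans h).trans (by
          rw [conj_inv]; exact (H11.isConj_conj g _).symm))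
      exact ⟨z, hv.trans hzc.symm, fun χ hχ => H6.principal_apply_of_complement hM
        (hb z (by rw [H6.orderOf_eq_of_isConj hzc, orderOf_cj, hx.1])) hχ hz⟩
  have := χ.2.isCharacter.mem_charKer.2 h2
  rw [χ.2.charKer_eq_bot_of_simple fun e => h1 (Subtype.ext e), mem_bot] at this
  rw [this, orderOf_one] at ht
  omega

end Cfsg.Agent.FG
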