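/-
Fischer's groups: the real case for odd primes, bounds for single characters.
-/
import Cfsg.Agent.FG.A
import Cfsg.Agent.H6.AbFrob

set_option autoImplicit false
set_option linter.style.haveILetI false
set_option linter.unusedSectionVars false

open Cfsg Subgroup
open scoped Pointwise ComplexConjugate

namespace Cfsg.Agent.FG

open Cfsg.Agent.H4 Cfsg.Agent.H7

variable {G : Type*} [Group G] [Finite G] {p : ℕ} [hp : Fact p.Prime]

theorem exists_pow_order {w : G} (h : ∃ k, orderOf w = p ^ k) (h1 : w ≠ 1) :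
    ∃ j, orderOf (w ^ j) = p := by
  obtain ⟨k, hk⟩ := h
  rcases k with _ | k
  · exact absurd (orderOf_eq_one_iff.1 (by simpa using hk)) h1
  · exact ⟨_, orderOf_pow_orderOf_div (orderOf_pos w).ne' (hk ▸ dvd_pow_self p k.succ_ne_zero)⟩

theorem ne_inv_of_order (hp2 : p ≠ 2) {x : G} (hx : orderOf x = p) : x ≠ x⁻¹ := fun e => by
  have : orderOf x ∣ 2 := orderOf_dvd_of_pow_eq_one (by rw [pow_two]; nth_rw 2 [e]; simp)
  rw [hx] at this
  exact hp2 ((Nat.prime_dvd_prime_iff_eq hp.out Nat.prime_two).1 this)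

theorem HB.af_of_comm (hb : HB p G) (P : Sylow p G)
    (hc : ∀ a ∈ (P : Subgroup G), ∀ b ∈ (P : Subgroup G), Commute a b) : H6.AF P := by
  refine ⟨fun a b => Subtype.ext (hc a a.2 b b.2), fun y hy h1 c hcy w hw => ?_⟩
  obtain ⟨j, hj⟩ := exists_pow_order (H6.exists_orderOf_eq_of_mem hp.out P.2 hy) h1
  have hle : (P : Subgroup G) ≤ centralizer {y ^ j} := fun a ha =>
    H11.mem_cent1.2 (hc a ha _ (pow_mem hy j))
  obtain ⟨π, f1, f2, f3, -⟩ := H6.exists_retract (hb _ hj) (P.subtype hle)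
  let c' : centralizer {y ^ j} := ⟨c, H11.mem_cent1.2 (Commute.pow_right (H11.mem_cent1.1 hcy.1 :) j)⟩
  let w' : centralizer {y ^ j} := ⟨w, hle hw⟩
  have h2 := (f3 (c' * w' * c'⁻¹ * w'⁻¹)).1 (by
    have : Commute (π c') (π w') := Subtype.ext (hc _ (f1 c') _ (f1 w'))
    simp [this.eq])
  rw [← orderOf_coe, ← hp.out.coprime_iff_not_dvd, Nat.coprime_comm] at h2
  have h3 := eq_one_of_pp (H6.exists_orderOf_eq_of_mem hp.out P.2
    (mul_mem ((mem_normalizer_iff.1 hcy.2 w).1 hw) (inv_mem hw))) h2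
  rw [mul_inv_eq_one, mul_inv_eq_iff_eq_mul] at h3
  exact h3.symm

theorem HB.af (hb : HB p G) (hp2 : p ≠ 2) {x : G} (hx : Cz p x) (hr : IsConj x x⁻¹) (P : Sylow p G)
    (hxP : x ∈ (P : Subgroup G)) : (∀ a ∈ (P : Subgroup G), ∀ b ∈ (P : Subgroup G), Commute a b) ∧
      ∃ n ∈ normalizer ((P : Subgroup G) : Set G), ∀ y ∈ (P : Subgroup G), n * y * n⁻¹ = y⁻¹ := by
  have hz := hx.2 _ P.2 hxP
  have hc : x ∈ centralizer ((P : Subgroup G) : Set G) := fun w hw => (hz w hw).symm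
  obtain ⟨g, hg⟩ := isConj_iff.1 hr
  obtain ⟨m, hm, e⟩ := P.conj_eq_normalizer_conj_of_mem_centralizer x g⁻¹ hc (by
    rw [inv_inv, hg]; exact inv_mem hc)
  rw [inv_inv, hg] at e
  obtain ⟨k, hk⟩ := exists_pow_coprime (p := p) m⁻¹
  obtain ⟨j, hj⟩ : Odd (p ^ k) := (hp.out.odd_of_ne_two hp2).pow
  have e1 : m⁻¹ * x * m⁻¹⁻¹ = x⁻¹ := by rw [inv_inv, e]
  have e0 : Commute (m⁻¹ ^ 2) x := by
    rw [Commute, SemiconjBy, ← mul_inv_eq_iff_eq_mul]
    calc _ = m⁻¹ * (m⁻¹ * x * m⁻¹⁻¹) * m⁻¹⁻¹ := by rw [pow_two]; simp only [mul_assoc, mul_inv_rev]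
      _ = x := by rw [e1, ← conj_inv, e1, inv_inv]
  set n := m⁻¹ ^ p ^ k with hn
  have e2 : n * x * n⁻¹ = x⁻¹ := by
    rw [hn, hj, pow_succ', pow_mul, ← e1, mul_assoc m⁻¹, (e0.pow_left j).eq]; group
  have hnN : n ∈ normalizer ((P : Subgroup G) : Set G) := pow_mem (inv_mem hm) _
  let σ := normalizerMonoidHom (P : Subgroup G) ⟨n, hnN⟩
  have h1 : MonoidHom.FixedPointFree σ := fun w hw => by
    by_contra h1
    obtain ⟨i, hi⟩ := exists_pow_order (H6.exists_orderOf_eq_of_mem hp.out P.2 w.2)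
      (fun e => h1 (Subtype.ext e))
    have h2 : Commute n w := by
      have : n * w * n⁻¹ = w := congrArg Subtype.val hw
      rwa [mul_inv_eq_iff_eq_mul] at this
    have h3 := hb.comm' P.2 hi (h2.pow_right i) ((hz _ w.2).pow_right i) hk hxP (e2 ▸ inv_mem hxP)
    rw [h3.eq, mul_inv_cancel_right] at e2
    exact ne_inv_of_order hp2 hx.1 e2
  have h2 : Function.Involutive σ := fun w => by
    have h3 : Commute (n ^ 2) x := by rw [hn, ← pow_mul, mul_comm, pow_mul]; exact e0.pow_left _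
    have := hb.comm' P.2 hx.1 h3 (hz _ w.2).symm (hk.coprime_dvd_left (orderOf_pow_dvd 2)) w.2
      ((mem_normalizer_iff.1 (pow_mem hnN 2) _).1 w.2)
    refine Subtype.ext ?_
    change n * (n * w * n⁻¹) * n⁻¹ = w
    calc _ = n ^ 2 * w * (n ^ 2)⁻¹ := by rw [pow_two]; simp only [mul_assoc, mul_inv_rev]
      _ = _ := by rw [this.eq, mul_inv_cancel_right]
  exact ⟨fun a ha b hb => congrArg Subtype.val (h1.commute_all_of_involutive h2 ⟨a, ha⟩ ⟨b, hb⟩),
    n, hnN, fun y hy => congrArg Subtype.val (congrFun (h1.coe_eq_inv_of_involutive h2) ⟨y, hy⟩)⟩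

theorem cz_of_comm {P : Sylow p G}
    (hc : ∀ a ∈ (P : Subgroup G), ∀ b ∈ (P : Subgroup G), Commute a b) {x : G} (hx : orderOf x = p) :
    Cz p x := by
  refine ⟨hx, fun Q hQ hxQ w hw => ?_⟩
  obtain ⟨T, hT⟩ := hQ.exists_le_sylow
  obtain ⟨g, rfl⟩ := MulAction.exists_smul_eq G P T
  have e : ∀ a ∈ Q, g⁻¹ * a * g⁻¹⁻¹ ∈ (P : Subgroup G) := fun a ha => by
    simpa [Sylow.coe_subgroup_smul, mem_pointwise_smul_iff_inv_smul_mem] using hT ha
  have := (hc _ (e x hxQ) _ (e w hw)).map (MulAut.conj g)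
  simpa [mul_assoc] using this

theorem HC.pairP (hc : HC p G) {P : Sylow p G}
    (hP : ∀ a ∈ (P : Subgroup G), ∀ b ∈ (P : Subgroup G), Commute a b) {u y : G}
    (hu : u ∈ (P : Subgroup G)) (ou : orderOf u = p) (oy : orderOf y = p) :
    ∃ w ∈ (P : Subgroup G), IsConj y w ∧
      ∀ i j : ℕ, ∃ z, IsPPart p (u ^ i * y ^ j) z ∧ IsConj z (u ^ i * w ^ j) := by
  obtain ⟨y', h1, h2, h3⟩ := hc.pair (cz_of_comm hP ou) (cz_of_comm hP oy)
  have hle : (P : Subgroup G) ≤ centralizer {u} := fun a ha => H11.mem_cent1.2 (hP a ha _ hu)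
  obtain ⟨c, hc⟩ := H6.exists_conj_mem_sylow (P.subtype hle) (z := ⟨y', H11.mem_cent1.2 h2.symm⟩)
    ⟨1, by rw [← orderOf_coe, pow_one, ← oy, H6.orderOf_eq_of_isConj h1]⟩
  refine ⟨c * y' * (c : G)⁻¹, hc, h1.trans (H11.isConj_conj _ _), fun i j => ?_⟩
  obtain ⟨z, hz, hzc⟩ := h3 i j
  refine ⟨z, hz, hzc.trans (isConj_iff.2 ⟨c, ?_⟩)⟩
  have : Commute (c : G) u := H11.mem_cent1.1 c.2
  rw [conj_pow, ← mul_assoc, (this.pow_right i).eq]; group

theorem pair_cyc {u y w : G} (ou : orderOf u = p) (ow : orderOf w = p) (hw : w ∈ zpowers u)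
    (h : ∀ i j : ℕ, ∃ z, IsPPart p (u ^ i * y ^ j) z ∧ IsConj z (u ^ i * w ^ j)) :
    ∃ k : ℕ, k.Coprime p ∧ w ^ k = u⁻¹ ∧
      ∀ i j : ℕ, ∃ z, IsPPart p (u ^ i * (y ^ k) ^ j) z ∧ IsConj z (u ^ i * (u ^ j)⁻¹) := by
  have e : zpowers w = zpowers u := eq_of_le_of_card_ge (zpowers_le.2 hw) (by
    rw [Nat.card_zpowers, Nat.card_zpowers, ou, ow])
  obtain ⟨k, hk⟩ : u⁻¹ ∈ Submonoid.powers w := by
    rw [mem_powers_iff_mem_zpowers, e]; exact inv_mem (mem_zpowers u)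
  have hk : w ^ k = u⁻¹ := hk
  refine ⟨k, ((hp.out.coprime_iff_not_dvd).2 fun hd => ne_one_of_order ou ?_).symm, hk, fun i j => ?_⟩
  · rw [← ow, orderOf_dvd_iff_pow_eq_one, hk, inv_eq_one] at hd; exact hd
  · have := h i (k * j)
    rwa [pow_mul, pow_mul, hk, inv_pow] at this

variable (p) in
/-- sum over the nonidentity powers -/
noncomputable def Dv (χ : G → ℂ) (u : G) : ℝ :=
  (∑ c ∈ (Finset.univ : Finset (ZMod p)).erase 0, χ (pw u c)).re

variable (p) in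
/-- sum over products of powers -/
noncomputable def bt (χ : G → ℂ) (x y : G) : ℂ := ∑ a : ZMod p, ∑ b : ZMod p, χ (pw x a * pw y b)

section Chi
variable {χ : G → ℂ} (hχ : IsIrrCharacter G χ)
include hχ

theorem sum_Dv {u : G} (hu : u ^ p = 1) :
    ∑ c ∈ (Finset.univ : Finset (ZMod p)).erase 0, χ (pw u c) = Dv p χ u := by
  have h1 : ∑ c ∈ (Finset.univ : Finset (ZMod p)).erase 0, conj (χ (pw u c)) =
      ∑ c ∈ (Finset.univ : Finset (ZMod p)).erase 0, χ (pw u c) := by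
    refine Finset.sum_equiv (Equiv.neg _) (fun c => by simp) fun c _ => ?_
    rw [← hχ.isCharacter.apply_inv, Equiv.neg_apply, ← zero_sub, pw_sub hu, pw_zero, one_mul]
  rw [← map_sum, Complex.conj_eq_iff_re] at h1
  exact h1.symm

theorem sum_pw {u : G} (hu : u ^ p = 1) : ∑ c : ZMod p, χ (pw u c) = χ 1 + Dv p χ u := by
  rw [← Finset.add_sum_erase _ _ (Finset.mem_univ 0), pw_zero, sum_Dv hχ hu]

theorem Dv_conj {u v : G} (h : IsConj u v) : Dv p χ u = Dv p χ v := by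
  obtain ⟨g, rfl⟩ := isConj_iff.1 h
  simp only [Dv, pw_conj, hχ.isClassFunction _ g]

omit hχ in
theorem Dv_pow {u : G} (hu : u ^ p = 1) {k : ℕ} (hk : k.Coprime p) : Dv p χ (u ^ k) = Dv p χ u := by
  have hk0 : (k : ZMod p) ≠ 0 := fun e =>
    (Nat.Prime.coprime_iff_not_dvd hp.out).1 hk.symm ((ZMod.natCast_eq_zero_iff _ _).1 e)
  unfold Dv
  congr 1
  exact Finset.sum_equiv (Equiv.mulLeft₀ _ hk0) (fun c => by simp [hk0]) fun c _ => by
    rw [pw_pow hu, Equiv.mulLeft₀_apply]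

theorem Dv_inv {u : G} (hu : u ^ p = 1) : Dv p χ u⁻¹ = Dv p χ u := by
  have e : u⁻¹ = u ^ (p - 1) := by
    rw [inv_eq_iff_mul_eq_one, ← pow_succ', Nat.sub_add_cancel hp.out.pos, hu]
  rw [e, Dv_pow hu ((Nat.coprime_self_sub_left hp.out.pos).2 (Nat.coprime_one_left p))]

theorem sum_bt [Fintype G] {u v : G} (hu : u ^ p = 1) (hv : v ^ p = 1) :
    ∑ h : G, bt p χ u (h * v * h⁻¹) =
      Nat.card G * ((χ 1 + Dv p χ u) * (χ 1 + Dv p χ v) / χ 1) := by
  simp only [bt, pw_conj, fun a b => hχ.isClassFunction.mul_comm (pw u a) b]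
  rw [Finset.sum_comm, Finset.sum_congr rfl fun a _ => Finset.sum_comm]
  simp only [hχ.sum_conj_mul, ← Finset.sum_mul, ← Finset.sum_div, ← Finset.mul_sum, sum_pw hχ hu,
    sum_pw hχ hv]
  ring

theorem Dv_lt [IsSimpleGroup G] (h1 : χ ≠ fun _ => 1) {u : G} (ou : orderOf u = p) :
    Dv p χ u < (p - 1) * (χ 1).re := by
  have hup : u ^ p = 1 := by rw [← ou, pow_orderOf_eq_one]
  have e3 := Finset.sum_lt_sum (s := (Finset.univ : Finset (ZMod p)).erase 0)
    (f := fun c => (χ (pw u c)).re) (g := fun _ => (χ 1).re) (fun c _ => hχ.isCharacter.re_le _)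
    ⟨1, by simp, lt_of_le_of_ne (hχ.isCharacter.re_le _) fun e => by
      have := hχ.isCharacter.mem_charKer.2 (hχ.isCharacter.eq_of_re_eq e)
      rw [hχ.charKer_eq_bot_of_simple h1, mem_bot, ← Nat.cast_one, pw_natCast hup, pow_one] at this
      exact ne_one_of_order ou this⟩
  rwa [Finset.sum_const, Finset.card_erase_of_mem (Finset.mem_univ _), Finset.card_univ, ZMod.card,
    nsmul_eq_mul, Nat.cast_pred hp.out.pos, ← Complex.re_sum] at e3

theorem bt_ge_sub [Fintype G] (K : Subgroup G) [Fintype K] {u w : G} (hu : u ^ p = 1) (hw : w ^ p = 1)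
    (huK : u ∈ K) (hwK : w ∈ K) (hc : Commute u w) :
    p ^ 2 * (∑ k : K, χ k).re ≤ Fintype.card K * (bt p χ u w).re := by
  let g : ZMod p × ZMod p → G := fun s => pw u s.1 * pw w s.2
  have hg : ∀ s, g s ∈ K := fun s => mul_mem (pow_mem huK _) (pow_mem hwK _)
  have h1 := re_sum_nonneg hχ Finset.univ
    (Sum.elim (fun _ => (Fintype.card K : ℝ)) (fun _ => -(p : ℝ) ^ 2) : (ZMod p × ZMod p) ⊕ K → ℝ)
    (Sum.elim g fun k => k)
  have e1 : ∀ s, ∑ t, χ ((g s)⁻¹ * g t) = bt p χ u w := fun s => by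
    rw [bt, ← Fintype.sum_prod_type' (f := fun a b => χ (pw u a * pw w b))]
    refine Fintype.sum_equiv (Equiv.subRight s) _ _ fun t => ?_
    simp only [g, Equiv.subRight_apply, Prod.fst_sub, Prod.snd_sub]
    rw [pw_sub' hu, pw_sub hw, ← hχ.isClassFunction _ (pw w s.2)]
    congr 1
    group
  have e2 : ∀ a ∈ K, ∑ k : K, χ (a⁻¹ * k) = ∑ k : K, χ k := fun a ha =>
    Fintype.sum_equiv (Equiv.mulLeft (⟨a, ha⟩ : K)⁻¹) _ _ fun k => rfl
  have e3 : ∑ k : K, ∑ t, χ ((k : G)⁻¹ * g t) = (p : ℂ) ^ 2 * ∑ k : K, χ k := by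
    rw [Finset.sum_comm, Finset.sum_congr rfl fun t _ => show ∑ k : K, χ ((k : G)⁻¹ * g t) =
      ∑ k : K, χ k from Fintype.sum_equiv ((Equiv.inv K).trans (Equiv.mulRight ⟨g t, hg t⟩)) _ _
        fun k => rfl]
    simp [pow_two]
  simp only [Fintype.sum_sum_type, Sum.elim_inl, Sum.elim_inr, Finset.sum_add_distrib,
    ← Finset.mul_sum, e1, e2 _ (hg _), fun k : K => e2 k k.2, e3, Finset.sum_const, Finset.card_univ,
    Fintype.card_prod, ZMod.card, nsmul_eq_mul] at h1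
  have e4 : (0 : ℝ) < Fintype.card K * p ^ 2 := by
    have := hp.out.pos
    positivity
  refine sub_nonneg.1 (nonneg_of_mul_nonneg_right (h1.trans_eq ?_) e4)
  generalize bt p χ u w = a
  generalize ∑ k : K, χ k = b
  calc _ = (((Fintype.card K * p ^ 2 * Fintype.card K : ℝ) : ℂ) * a -
        ((Fintype.card K * p ^ 2 * p ^ 2 : ℝ) : ℂ) * b).re := by congr 1; push_cast; ring
    _ = _ := by rw [Complex.sub_re, Complex.re_ofReal_mul, Complex.re_ofReal_mul]; ring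

theorem bt_noncyc {u w : G} (ou : orderOf u = p) (ow : orderOf w = p) (hc : Commute u w)
    (hw : w ∉ zpowers u) : bt p χ u w = χ 1 + Dv p χ w + ∑ j : ZMod p, (Dv p χ (u * pw w j) : ℂ) ∧
      ∀ j : ZMod p, orderOf (u * pw w j) = p := by
  have hup : u ^ p = 1 := by rw [← ou, pow_orderOf_eq_one]
  have hwp : w ^ p = 1 := by rw [← ow, pow_orderOf_eq_one]
  have h1 : ∀ j : ZMod p, (u * pw w j) ^ p = 1 := fun j => by
    rw [pw, (hc.pow_right _).mul_pow, hup, ← pow_mul, mul_comm j.val, pow_mul, hwp]; simp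
  refine ⟨?_, fun j => orderOf_eq_prime (h1 j) fun e => hw ?_⟩
  · rw [bt, ← Finset.add_sum_erase _ _ (Finset.mem_univ 0)]
    simp only [pw_zero, one_mul, sum_pw hχ hwp, ← sum_Dv hχ (h1 _)]
    rw [Finset.sum_comm (s := Finset.univ)]
    congr 1
    refine Finset.sum_congr rfl fun a ha => ?_
    refine (Fintype.sum_equiv (Equiv.mulRight₀ a (Finset.mem_erase.1 ha).1) _ _ fun j => ?_).symm
    change χ ((u * w ^ j.val) ^ a.val) = χ (pw u a * pw w (j * a))
    rw [(hc.pow_right _).mul_pow, ← ZMod.natCast_zmod_val j, ← pw_pow hwp, ZMod.natCast_zmod_val]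
    rfl
  · have e1 : u ∈ zpowers w := by rw [eq_inv_of_mul_eq_one_left e]; exact inv_mem (pow_mem (mem_zpowers w) _)
    have e2 : zpowers u = zpowers w := eq_of_le_of_card_ge (zpowers_le.2 e1) (by
      rw [Nat.card_zpowers, Nat.card_zpowers, ou, ow])
    exact e2 ▸ mem_zpowers w

end Chi

end Cfsg.Agent.FG
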