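/-
Fischer's groups: the real case for odd primes, the counting argument.
-/
import Cfsg.Agent.FG.B

set_option autoImplicit false
set_option linter.style.haveILetI false
set_option linter.unusedSectionVars false

open Cfsg Subgroup
open scoped Pointwise ComplexConjugate

namespace Cfsg.Agent.FG

open Cfsg.Agent.H4 Cfsg.Agent.H7

variable {G : Type*} [Group G] [Fintype G] {p : ℕ} [hp : Fact p.Prime]

theorem bt_pow (χ : G → ℂ) (u : G) {y : G} (hy : y ^ p = 1) {k : ℕ} (hk : k.Coprime p) :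
    bt p χ u (y ^ k) = bt p χ u y := by
  have hk0 : (k : ZMod p) ≠ 0 := fun e =>
    (Nat.Prime.coprime_iff_not_dvd hp.out).1 hk.symm ((ZMod.natCast_eq_zero_iff _ _).1 e)
  exact Finset.sum_congr rfl fun a _ => Fintype.sum_equiv (Equiv.mulLeft₀ _ hk0) _ _ fun b => by
    rw [pw_pow hy, Equiv.mulLeft₀_apply]

theorem E_nonneg {χ : G → ℂ} (hχ : IsIrrCharacter G χ) {u : G} (hu : u ^ p = 1) :
    0 ≤ (χ 1).re + Dv p χ u := by
  have h1 := re_sum_nonneg hχ Finset.univ (fun _ : ZMod p => (1 : ℝ)) (pw u)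
  have e1 : ∀ s : ZMod p, ∑ t, χ ((pw u s)⁻¹ * pw u t) = χ 1 + Dv p χ u := fun s => by
    rw [← sum_pw hχ hu]
    exact Fintype.sum_equiv (Equiv.subRight s) _ _ fun t => by rw [Equiv.subRight_apply, pw_sub' hu]
  simp only [Complex.ofReal_one, one_mul, e1, Finset.sum_const, Finset.card_univ, ZMod.card,
    nsmul_eq_mul] at h1
  rw [← Complex.ofReal_natCast, Complex.re_ofReal_mul, Complex.add_re, Complex.ofReal_re] at h1
  exact nonneg_of_mul_nonneg_right h1 (Nat.cast_pos.2 hp.out.pos)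

theorem avg_bt {χ : G → ℂ} (hχ : IsIrrCharacter G χ) {u v : G} (hu : u ^ p = 1) (hv : v ^ p = 1)
    {f : ℕ} (hf : χ 1 = f) (hf0 : 0 < f) {a c : ℝ} (h : ∀ g, c ≤ a * (bt p χ u (g * v * g⁻¹)).re) :
    c * f ≤ a * ((f + Dv p χ u) * (f + Dv p χ v)) := by
  have h1 := Finset.sum_le_sum fun g (_ : g ∈ Finset.univ) => h g
  rw [← Finset.mul_sum, ← Complex.re_sum, sum_bt hχ hu hv, hf, Finset.sum_const, Finset.card_univ,
    nsmul_eq_mul, ← Nat.card_eq_fintype_card, show (Nat.card G : ℂ) * ((f + Dv p χ u) *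
      (f + Dv p χ v) / f) = ((Nat.card G * ((f + Dv p χ u) * (f + Dv p χ v) / f) : ℝ) : ℂ) by
      push_cast; rfl, Complex.ofReal_re, mul_left_comm] at h1
  have h2 := le_of_mul_le_mul_left h1 (Nat.cast_pos.2 Nat.card_pos)
  rwa [← mul_div_assoc, le_div_iff₀ (Nat.cast_pos.2 hf0)] at h2

open Classical in
/-- elements of order `p` in the Sylow subgroup -/
noncomputable def Ap (P : Sylow p G) : Finset G :=
  Finset.univ.filter fun y => y ∈ (P : Subgroup G) ∧ orderOf y = p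

theorem mem_Ap {P : Sylow p G} {y : G} : y ∈ Ap P ↔ y ∈ (P : Subgroup G) ∧ orderOf y = p := by
  simp [Ap]

theorem pow_of_mem {P : Sylow p G} {y : G} (h : y ∈ Ap P) : y ^ p = 1 := by
  rw [← (mem_Ap.1 h).2, pow_orderOf_eq_one]

theorem inv_mem_Ap {P : Sylow p G} {y : G} (h : y ∈ Ap P) : y⁻¹ ∈ Ap P :=
  mem_Ap.2 ⟨inv_mem (mem_Ap.1 h).1, by rw [orderOf_inv, (mem_Ap.1 h).2]⟩

theorem sum_Ap_Dv (P : Sylow p G) (χ : G → ℂ) :
    ∑ u ∈ Ap P, Dv p χ u = (p - 1) * (∑ u ∈ Ap P, χ u).re := by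
  have h1 : ∀ c : ZMod p, c ≠ 0 → ∀ u ∈ Ap P, pw u c ∈ Ap P := fun c hc u hu =>
    mem_Ap.2 ⟨pow_mem (mem_Ap.1 hu).1 _, orderOf_pw (mem_Ap.1 hu).2 hc⟩
  have h2 : ∀ c d : ZMod p, c * d = 1 → ∀ u ∈ Ap P, pw (pw u c) d = u := fun c d h u hu => by
    rw [pw.eq_1 u, pw_pow (pow_of_mem hu), ZMod.natCast_zmod_val, h, ← Nat.cast_one,
      pw_natCast (pow_of_mem hu), pow_one]
  simp only [Dv, ← Complex.re_sum]
  rw [Finset.sum_comm, Finset.sum_congr rfl fun c hc => show ∑ u ∈ Ap P, χ (pw u c) =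
    ∑ u ∈ Ap P, χ u from Finset.sum_nbij' (pw · c) (pw · c⁻¹) (h1 c (Finset.mem_erase.1 hc).1)
      (h1 _ (inv_ne_zero (Finset.mem_erase.1 hc).1))
      (h2 _ _ (mul_inv_cancel₀ (Finset.mem_erase.1 hc).1))
      (h2 _ _ (inv_mul_cancel₀ (Finset.mem_erase.1 hc).1)) fun _ _ => rfl,
    Finset.sum_const, Finset.card_erase_of_mem (Finset.mem_univ _), Finset.card_univ, ZMod.card,
    nsmul_eq_mul, ← Complex.ofReal_natCast, Complex.re_ofReal_mul, Nat.cast_pred hp.out.pos]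

theorem sum_Ap_real (P : Sylow p G) {χ : G → ℂ} (hχ : IsIrrCharacter G χ) :
    ∑ u ∈ Ap P, conj (χ u) = (∑ u ∈ Ap P, χ u).re ∧ ∑ u ∈ Ap P, χ u = (∑ u ∈ Ap P, χ u).re := by
  have h1 : ∑ u ∈ Ap P, conj (χ u) = ∑ u ∈ Ap P, χ u :=
    Finset.sum_nbij' (·⁻¹) (·⁻¹) (fun _ => inv_mem_Ap) (fun _ => inv_mem_Ap) (by simp) (by simp)
      fun u _ => (hχ.isCharacter.apply_inv u).symm
  rw [h1, and_self]
  rw [← map_sum, Complex.conj_eq_iff_re] at h1
  exact h1.symm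

theorem bt_ge_Ap {P : Sylow p G} (hP : ∀ a ∈ (P : Subgroup G), ∀ b ∈ (P : Subgroup G), Commute a b)
    {χ : G → ℂ} (hχ : IsIrrCharacter G χ) {u w : G} (hu : u ∈ Ap P) (hw : w ∈ Ap P) :
    p ^ 2 * ((χ 1).re + (∑ u ∈ Ap P, χ u).re) ≤ ((Ap P).card + 1) * (bt p χ u w).re := by
  classical
  let K : Subgroup G :=
    { carrier := {y | y ∈ (P : Subgroup G) ∧ y ^ p = 1}
      one_mem' := ⟨one_mem _, one_pow _⟩
      mul_mem' := fun {a b} ha hb => ⟨mul_mem ha.1 hb.1, by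
        rw [(hP a ha.1 b hb.1).mul_pow, ha.2, hb.2, one_mul]⟩
      inv_mem' := fun {a} ha => ⟨inv_mem ha.1, by rw [inv_pow, ha.2, inv_one]⟩ }
  have h0 : (1 : G) ∉ Ap P := fun h => ne_one_of_order (mem_Ap.1 h).2 rfl
  have hK : ∀ y, y ∈ insert 1 (Ap P) ↔ y ∈ K := fun y => by
    rw [Finset.mem_insert]
    refine ⟨fun h => h.elim (fun e => e ▸ one_mem _) fun h => ⟨(mem_Ap.1 h).1, pow_of_mem h⟩,
      fun h => ?_⟩
    by_cases e : y = 1
    · exact Or.inl e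
    · exact Or.inr (mem_Ap.2 ⟨h.1, orderOf_eq_prime h.2 e⟩)
  have h1 := bt_ge_sub hχ K (pow_of_mem hu) (pow_of_mem hw) ((hK u).1 (by simp [hu]))
    ((hK w).1 (by simp [hw])) (hP u (mem_Ap.1 hu).1 w (mem_Ap.1 hw).1)
  rwa [← Finset.sum_subtype _ hK, Fintype.card_of_subtype _ hK, Finset.sum_insert h0,
    Finset.card_insert_of_notMem h0, Complex.add_re, Nat.cast_succ] at h1

section Block
variable {M : Ideal AlgInt} [hMm : M.IsMaximal] (hM : IsPModular p M) (hb : HB p G)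
  {χ : IrrCharacter G} (hχ : χ ∈ principalBlock M G)
include hM hb hχ

theorem chi_eq {g z a : G} (hz : IsPPart p g z) (hzc : IsConj z a) (oa : orderOf a = p) :
    (χ : G → ℂ) g = (χ : G → ℂ) a := by
  have oz : orderOf z = p := by rw [H6.orderOf_eq_of_isConj hzc, oa]
  obtain ⟨c, rfl⟩ := isConj_iff.1 hzc
  rw [χ.2.isClassFunction]
  exact H6.principal_apply_of_complement hM (hb z oz) hχ hz

theorem bt_cyc {u y : G} (ou : orderOf u = p) (hy : y ^ p = 1)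
    (h : ∀ i j : ℕ, ∃ z, IsPPart p (u ^ i * y ^ j) z ∧ IsConj z (u ^ i * (u ^ j)⁻¹)) :
    p ^ 2 * Dv p χ u ≤ (p - 1) * (bt p χ u y).re := by
  have hup : u ^ p = 1 := by rw [← ou, pow_orderOf_eq_one]
  have h1 : ∀ a : ZMod p, ∑ b : ZMod p, (χ : G → ℂ) (pw u a * pw y b) =
      (χ : G → ℂ) (pw u a * pw y a) + Dv p χ u := fun a => by
    rw [← Finset.add_sum_erase _ _ (Finset.mem_univ a), ← sum_Dv χ.2 hup]
    congr 1
    refine Finset.sum_equiv (Equiv.subLeft a) (fun b => by simp [sub_eq_zero, eq_comm])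
      fun b hb' => ?_
    obtain ⟨z, hz, hzc⟩ := h a.val b.val
    have e : u ^ a.val * (u ^ b.val)⁻¹ = pw u (a - b) := (pw_sub hup a b).symm
    exact chi_eq hM hb hχ hz (e ▸ hzc)
      (orderOf_pw ou (sub_ne_zero.2 (Finset.mem_erase.1 hb').1.symm))
  have h2 := re_diag_nonneg χ.2 hup hy
  unfold bt
  simp only [h1, Finset.sum_add_distrib, Finset.sum_const, Finset.card_univ, ZMod.card,
    nsmul_eq_mul] at h2 ⊢
  generalize ∑ a : ZMod p, (χ : G → ℂ) (pw u a * pw y a) = α at h2 ⊢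
  simp only [Complex.sub_re, Complex.add_re, Complex.mul_re, Complex.natCast_re, Complex.natCast_im,
    Complex.ofReal_re, Complex.ofReal_im, zero_mul, mul_zero, sub_zero] at h2 ⊢
  linarith

theorem bt_eq {u y w : G} (ou : orderOf u = p) (ow : orderOf w = p) (hc : Commute u w)
    (hw : w ∉ zpowers u)
    (h : ∀ i j : ℕ, ∃ z, IsPPart p (u ^ i * y ^ j) z ∧ IsConj z (u ^ i * w ^ j)) :
    bt p χ u y = bt p χ u w := by
  refine Finset.sum_congr rfl fun a _ => Finset.sum_congr rfl fun b _ => ?_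
  by_cases hb0 : b = 0
  · simp only [hb0, pw_zero]
  obtain ⟨z, hz, hzc⟩ := h a.val b.val
  refine chi_eq hM hb hχ hz hzc (orderOf_eq_prime ?_ fun e => hw ?_)
  · rw [pw, pw, (hc.pow_pow _ _).mul_pow, ← pow_mul, ← pow_mul, mul_comm a.val, mul_comm b.val, pow_mul,
      pow_mul, orderOf_dvd_iff_pow_eq_one.1 ou.dvd, orderOf_dvd_iff_pow_eq_one.1 ow.dvd]; simp
  · have e1 : zpowers (pw w b) = zpowers w := eq_of_le_of_card_ge (zpowers_le.2 (pow_mem (mem_zpowers w) _))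
      (by rw [Nat.card_zpowers, Nat.card_zpowers, ow, orderOf_pw ow hb0])
    refine (show zpowers (pw w b) ≤ zpowers u from zpowers_le.2 ?_) (e1 ▸ mem_zpowers w)
    rw [show pw w b = (u ^ a.val)⁻¹ from eq_inv_of_mul_eq_one_right e]
    exact inv_mem (pow_mem (mem_zpowers u) _)

theorem dich (hc : HC p G) {P : Sylow p G}
    (hP : ∀ a ∈ (P : Subgroup G), ∀ b ∈ (P : Subgroup G), Commute a b) {u v : G} (hu : u ∈ Ap P)
    (hv : v ∈ Ap P) (g : G) :
    (∃ w ∈ Ap P, Dv p χ w = Dv p χ v ∧ w ∉ zpowers u ∧ bt p χ u (g * v * g⁻¹) = bt p χ u w) ∨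
      (Dv p χ v = Dv p χ u ∧ p ^ 2 * Dv p χ u ≤ (p - 1) * (bt p χ u (g * v * g⁻¹)).re) := by
  have ou := (mem_Ap.1 hu).2
  have oy : orderOf (g * v * g⁻¹) = p := by rw [orderOf_cj, (mem_Ap.1 hv).2]
  have hy : (g * v * g⁻¹) ^ p = 1 := by rw [← oy, pow_orderOf_eq_one]
  obtain ⟨w, hw, h1, h2⟩ := hc.pairP hP (mem_Ap.1 hu).1 ou oy
  have ow : orderOf w = p := by rw [← H6.orderOf_eq_of_isConj h1, oy]
  have h3 := Dv_conj (p := p) χ.2 ((H11.isConj_conj g v).trans h1)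
  by_cases h : w ∈ zpowers u
  · obtain ⟨k, hk, e, h4⟩ := pair_cyc ou ow h h2
    refine Or.inr ⟨?_, ?_⟩
    · rw [h3, ← Dv_pow (pow_of_mem (mem_Ap.2 ⟨hw, ow⟩)) hk, e, Dv_inv χ.2 (pow_of_mem hu)]
    · rw [← bt_pow _ _ hy hk]
      exact bt_cyc hM hb hχ ou (by rw [← pow_mul, mul_comm, pow_mul, hy, one_pow]) h4
  · exact Or.inl ⟨w, mem_Ap.2 ⟨hw, ow⟩, h3.symm, h,
      bt_eq hM hb hχ ou ow (hP u (mem_Ap.1 hu).1 w hw) h h2⟩

theorem bound [IsSimpleGroup G] (hc : HC p G) (hp2 : p ≠ 2) {P : Sylow p G}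
    (hP : ∀ a ∈ (P : Subgroup G), ∀ b ∈ (P : Subgroup G), Commute a b) (hne : (Ap P).Nonempty)
    (h1 : χ ≠ irrOne G) : 3 * (∑ u ∈ Ap P, (χ : G → ℂ) u).re ≤ (Ap P).card * ((χ : G → ℂ) 1).re := by
  obtain ⟨f, hf0, hf⟩ := χ.2.exists_degree
  have hf0' : (0 : ℝ) < f := Nat.cast_pos.2 hf0
  have hp3 : (3 : ℝ) ≤ p := by
    have := hp.out.two_le
    exact_mod_cast (show 3 ≤ p by omega)
  obtain ⟨u, hu, hmin⟩ := Finset.exists_min_image (Ap P) (Dv p χ) hne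
  have hlt : ∀ v ∈ Ap P, Dv p χ v < (p - 1) * f := fun v hv => by
    have := Dv_lt χ.2 (fun e => h1 (Subtype.ext e)) (mem_Ap.1 hv).2
    rwa [hf, Complex.natCast_re] at this
  have h2 : ∀ w ∈ Ap P, w ∉ zpowers u → f + Dv p χ w + p * Dv p χ u ≤ (bt p χ u w).re :=
    fun w hw hwu => by
      obtain ⟨e1, e2⟩ := bt_noncyc χ.2 (mem_Ap.1 hu).2 (mem_Ap.1 hw).2
        (hP u (mem_Ap.1 hu).1 w (mem_Ap.1 hw).1) hwu
      have := Finset.sum_le_sum fun j (_ : j ∈ (Finset.univ : Finset (ZMod p))) => hmin _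
        (mem_Ap.2 ⟨mul_mem (mem_Ap.1 hu).1 (pow_mem (mem_Ap.1 hw).1 j.val), e2 j⟩)
      rw [Finset.sum_const, Finset.card_univ, ZMod.card, nsmul_eq_mul] at this
      rw [e1, hf, ← Complex.ofReal_sum]
      simp only [Complex.add_re, Complex.natCast_re, Complex.ofReal_re]
      exact add_le_add_right this _
  have hn : (0 : ℝ) ≤ (Ap P).card * f := by positivity
  rw [hf, Complex.natCast_re]
  set s := (∑ u ∈ Ap P, (χ : G → ℂ) u).re
  by_cases hs : s ≤ 0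
  · linarith
  push Not at hs
  by_cases hall : ∀ v ∈ Ap P, Dv p χ v = Dv p χ u
  · have h3 := avg_bt χ.2 (pow_of_mem hu) (pow_of_mem hu) hf hf0 (a := p - 1)
      (c := p ^ 2 * Dv p χ u) fun g => by
        rcases dich hM hb hχ hc hP hu hu g with ⟨w, hw, e1, e2, e3⟩ | ⟨-, h⟩
        · have := h2 w hw e2
          rw [e3]
          nlinarith [hlt u hu]
        · exact h
    have h4 := sum_Ap_Dv P χ
    rw [Finset.sum_congr rfl hall, Finset.sum_const, nsmul_eq_mul] at h4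
    have h5 : (p - 1) * Dv p χ u ≤ f := by
      have e3 : 0 ≤ ((p - 1) * f - Dv p χ u) * (f - (p - 1) * Dv p χ u) := by nlinarith
      exact sub_nonneg.1 (nonneg_of_mul_nonneg_right e3 (sub_pos.2 (hlt u hu)))
    have h6 := mul_le_mul_of_nonneg_left h5 (Nat.cast_nonneg (Ap P).card)
    have h7 : (4 : ℝ) ≤ (p - 1) ^ 2 := by nlinarith
    nlinarith
  · push Not at hall
    obtain ⟨v, hv, hne⟩ := hall
    have h3 := avg_bt χ.2 (pow_of_mem hu) (pow_of_mem hv) hf hf0 (a := 1)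
      (c := f + Dv p χ v + p * Dv p χ u) fun g => by
        rcases dich hM hb hχ hc hP hu hv g with ⟨w, hw, e1, e2, e3⟩ | ⟨h, -⟩
        · rw [e3, one_mul, ← e1]; exact h2 w hw e2
        · exact absurd h hne
    have h4 := avg_bt χ.2 (pow_of_mem hu) (pow_of_mem hv) hf hf0 (a := (Ap P).card + 1)
      (c := p ^ 2 * (f + s)) fun g => by
        rcases dich hM hb hχ hc hP hu hv g with ⟨w, hw, e1, e2, e3⟩ | ⟨h, -⟩
        · have := bt_ge_Ap hP χ.2 hu hw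
          rwa [hf, Complex.natCast_re, ← e3] at this
        · exact absurd h hne
    have h5 : Dv p χ u ≤ 0 := by
      by_contra h
      push Not at h
      nlinarith [mul_pos h (sub_pos.2 (hlt v hv))]
    have h6 := E_nonneg χ.2 (pow_of_mem hv)
    rw [hf, Complex.natCast_re] at h6
    have h7 : (f + Dv p χ u) * (f + Dv p χ v) ≤ f * (p * f) := by
      nlinarith [hlt v hv, mul_nonneg (neg_nonneg.2 h5) h6]
    have h8 := h4.trans (mul_le_mul_of_nonneg_left h7 (by positivity))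
    have h9 : p * (f + s) ≤ ((Ap P).card + 1) * f :=
      le_of_mul_le_mul_left (a := (p : ℝ) * f) (by linarith) (mul_pos (by linarith) hf0')
    nlinarith

end Block

end Cfsg.Agent.FG
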