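/-
Fischer's groups: odd primes are impossible.
-/
import Cfsg.Agent.FG.C

set_option autoImplicit false
set_option linter.style.haveILetI false
set_option linter.unusedSectionVars false

open Cfsg Subgroup
open scoped Pointwise ComplexConjugate

namespace Cfsg.Agent.FG

open Cfsg.Agent.H4 Cfsg.Agent.H7

variable {G : Type*} [Group G] [Fintype G] {p : ℕ} [hp : Fact p.Prime] {P : Sylow p G}

open Classical in
theorem cl_card (h : H6.AF P) {y : G} (hy : y ∈ Ap P) :
    ((Ap P).filter (IsConj y)).card = Nat.card (H6.autz (P : Subgroup G)) := by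
  let y' : (P : Subgroup G) := ⟨y, (mem_Ap.1 hy).1⟩
  have hy1 : y' ≠ 1 := fun e => ne_one_of_order (mem_Ap.1 hy).2 (congrArg Subtype.val e)
  rw [Nat.card_eq_fintype_card, ← Finset.card_univ]
  refine (Finset.card_bij (fun α _ => (α.1 y' : G)) (fun α _ => ?_) (fun α _ β _ e => ?_)
    fun x hx => ?_).symm
  · have := h.isConj_iff.2 ⟨α, α.2, (rfl : α.1 y' = _)⟩
    exact Finset.mem_filter.2 ⟨mem_Ap.2 ⟨(α.1 y').2, by
      rw [← H6.orderOf_eq_of_isConj this, (mem_Ap.1 hy).2]⟩, this⟩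
  · have := h.free (mul_mem (inv_mem β.2) α.2) hy1 (by
      rw [MulAut.mul_apply, Subtype.ext e]; exact β.1.symm_apply_apply y')
    exact Subtype.ext (inv_mul_eq_one.1 this).symm
  · obtain ⟨α, hα, e⟩ := (h.isConj_iff (y := y') (x := ⟨x, (mem_Ap.1 (Finset.mem_filter.1 hx).1).1⟩)).1
      (Finset.mem_filter.1 hx).2
    exact ⟨⟨α, hα⟩, Finset.mem_univ _, congrArg Subtype.val e⟩

section Block
variable {M : Ideal AlgInt} [hMm : M.IsMaximal] (hM : IsPModular p M)
include hM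

theorem F_val (h : H6.AF P) {g z : G} (hz : IsPPart p g z) (oz : orderOf z = p) :
    ∑ w ∈ Ap P, H6.bker (principalBlock M G) g w =
      Nat.card P * Nat.card (H6.autz (P : Subgroup G)) := by
  classical
  obtain ⟨c, hc⟩ := H6.exists_conj_mem_sylow P (z := z) ⟨1, by rw [oz, pow_one]⟩
  have hy : c * z * c⁻¹ ∈ Ap P := mem_Ap.2 ⟨hc, by rw [orderOf_cj, oz]⟩
  rw [← cl_card h hy, Finset.card_filter, Nat.cast_sum, Finset.mul_sum]
  refine Finset.sum_congr rfl fun w hw => ?_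
  rw [H6.bker_of_isConj _ (H11.isConj_conj c g) (IsConj.refl w)]
  split_ifs with h1
  · rw [H6.bker_principal hM (H6.IsPPart.conj hz c) (h.compl hc (ne_one_of_order (mem_Ap.1 hy).2)) h1,
      H6.factorization_card_of_sylow_le P (h.le_cent hc)]
    simp
  · rw [H6.bker_of_not_isConj hM H6.isPBlock_principal (H6.IsPPart.conj hz c)
      (H6.isPPart_self hp.out ⟨1, by rw [(mem_Ap.1 hw).2, pow_one]⟩) h1]
    simp

theorem F_reg {g : G} (hz : IsPPart p g 1) : ∑ w ∈ Ap P, H6.bker (principalBlock M G) g w = 0 :=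
  Finset.sum_eq_zero fun w hw => H6.bker_of_not_isConj hM H6.isPBlock_principal hz
    (H6.isPPart_self hp.out ⟨1, by rw [(mem_Ap.1 hw).2, pow_one]⟩) fun h =>
      ne_one_of_order (mem_Ap.1 hw).2 (isConj_one_right.1 h)

omit hM in
theorem F_eq (g : G) : ∑ w ∈ Ap P, H6.bker (principalBlock M G) g w =
    ∑ χ ∈ H8.bfin (principalBlock M G), ((∑ u ∈ Ap P, (χ : G → ℂ) u).re : ℂ) * (χ : G → ℂ) g := by
  classical
  simp only [H6.bker_eq]
  rw [Finset.sum_comm, H8.sum_eq_sum_bfin (principalBlock M G) _ fun χ hχ => by simp [hχ]]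
  refine Finset.sum_congr rfl fun χ hχ => ?_
  simp only [H8.mem_bfin.1 hχ, if_true, ← Finset.mul_sum, (sum_Ap_real P χ.2).1, mul_comm]

theorem F_ge (hc : HC p G) (hp2 : p ≠ 2) (h : H6.AF P)
    (hinv : ∀ y ∈ (P : Subgroup G), IsConj y y⁻¹) {u : G} (hu : u ∈ Ap P) (g : G) :
    (Nat.card P * Nat.card (H6.autz (P : Subgroup G)) : ℝ) *
      ((Ap P).card - Nat.card (H6.autz (P : Subgroup G)) / 2) ≤
      (∑ v ∈ Ap P, ∑ w ∈ Ap P, H6.bker (principalBlock M G) (g * v * g⁻¹ * u) w).re := by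
  classical
  have hP : ∀ a ∈ (P : Subgroup G), ∀ b ∈ (P : Subgroup G), Commute a b := fun a ha b hb =>
    congrArg Subtype.val (h.comm ⟨a, ha⟩ ⟨b, hb⟩)
  have ou := (mem_Ap.1 hu).2
  let R := (Ap P).filter fun v => IsPPart p (u * (g * v * g⁻¹)) 1
  have key : ∀ v ∈ Ap P, (v ∈ R → IsConj u v ∧ v⁻¹ ∉ R) ∧
      (v ∉ R → ∃ z, IsPPart p (u * (g * v * g⁻¹)) z ∧ orderOf z = p) := fun v hv => by
    have oy : orderOf (g * v * g⁻¹) = p := by rw [orderOf_cj, (mem_Ap.1 hv).2]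
    obtain ⟨w, hw, h1, h2⟩ := hc.pairP hP (mem_Ap.1 hu).1 ou oy
    have ow : orderOf w = p := by rw [← H6.orderOf_eq_of_isConj h1, oy]
    obtain ⟨z, hz, hzc⟩ := h2 1 1
    rw [pow_one, pow_one] at hz hzc
    refine ⟨fun hR => ?_, fun hR => ⟨z, hz, ?_⟩⟩
    · rw [H6.IsPPart.unique hp.out hz (Finset.mem_filter.1 hR).2, isConj_one_right] at hzc
      have e := eq_inv_of_mul_eq_one_right hzc
      refine ⟨(hinv u (mem_Ap.1 hu).1).trans (e ▸ ((H11.isConj_conj g v).trans h1).symm), fun hR' => ?_⟩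
      obtain ⟨z', hz', hzc'⟩ := h2 1 (p - 1)
      have e1 : ∀ a : G, orderOf a = p → a ^ (p - 1) = a⁻¹ := fun a ha => by
        rw [eq_inv_iff_mul_eq_one, ← pow_succ, Nat.sub_add_cancel hp.out.pos, ← ha, pow_orderOf_eq_one]
      rw [pow_one, e1 _ oy, conj_inv] at hz'
      rw [pow_one, e1 _ ow, e, inv_inv, H6.IsPPart.unique hp.out hz' (Finset.mem_filter.1 hR').2,
        isConj_one_right] at hzc'
      exact ne_inv_of_order hp2 ou (eq_inv_of_mul_eq_one_right hzc')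
    · rw [H6.orderOf_eq_of_isConj hzc]
      refine orderOf_eq_prime (by rw [(hP u (mem_Ap.1 hu).1 w hw).mul_pow, pow_of_mem hu,
        orderOf_dvd_iff_pow_eq_one.1 ow.dvd, one_mul]) fun e => hR ?_
      rw [e, isConj_one_left] at hzc
      exact Finset.mem_filter.2 ⟨hv, hzc ▸ hz⟩
  have hRA : R ⊆ Ap P := Finset.filter_subset _ _
  have h1 : 2 * R.card ≤ Nat.card (H6.autz (P : Subgroup G)) := by
    rw [← cl_card h hu, two_mul]
    nth_rw 2 [← Finset.card_image_of_injective R inv_injective]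
    rw [← Finset.card_union_of_disjoint (Finset.disjoint_left.2 fun v hv hv' => by
      obtain ⟨w, hw, rfl⟩ := Finset.mem_image.1 hv'
      exact ((key w (hRA hw)).1 hw).2 hv)]
    refine Finset.card_le_card fun v hv => ?_
    rcases Finset.mem_union.1 hv with hv | hv
    · exact Finset.mem_filter.2 ⟨hRA hv, ((key v (hRA hv)).1 hv).1⟩
    · obtain ⟨w, hw, rfl⟩ := Finset.mem_image.1 hv
      exact Finset.mem_filter.2 ⟨inv_mem_Ap (hRA hw),
        ((key w (hRA hw)).1 hw).1.trans (hinv w (mem_Ap.1 (hRA hw)).1)⟩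
  have h2 : ∀ v ∈ Ap P, ∑ w ∈ Ap P, H6.bker (principalBlock M G) (g * v * g⁻¹ * u) w =
      if v ∈ R then 0 else ((Nat.card P * Nat.card (H6.autz (P : Subgroup G)) : ℝ) : ℂ) :=
    fun v hv => by
      have e : IsConj (g * v * g⁻¹ * u) (u * (g * v * g⁻¹)) := isConj_iff.2 ⟨u, by group⟩
      simp only [fun w => H6.bker_of_isConj (principalBlock M G) e (IsConj.refl w)]
      split_ifs with hR
      · exact F_reg hM (Finset.mem_filter.1 hR).2
      · obtain ⟨z, hz, oz⟩ := (key v hv).2 hR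
        rw [F_val hM h hz oz]; push_cast; rfl
  rw [Finset.sum_congr rfl h2, Finset.sum_ite, Finset.sum_const_zero, zero_add, Finset.sum_const,
    nsmul_eq_mul, ← Complex.ofReal_natCast, Complex.re_ofReal_mul, Complex.ofReal_re, mul_comm,
    Finset.filter_not, Finset.filter_mem_eq_inter, Finset.inter_eq_right.2 hRA,
    Finset.card_sdiff_of_subset hRA, Nat.cast_sub (Finset.card_le_card hRA)]
  refine mul_le_mul_of_nonneg_right ?_ (by positivity)
  have : (2 * R.card : ℝ) ≤ Nat.card (H6.autz (P : Subgroup G)) := by exact_mod_cast h1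
  linarith

theorem count [IsSimpleGroup G] (hb : HB p G) (hc : HC p G) (hp2 : p ≠ 2) (h : H6.AF P)
    (hinv : ∀ y ∈ (P : Subgroup G), IsConj y y⁻¹) (hn : 4 ≤ (Ap P).card) : False := by
  classical
  have hP : ∀ a ∈ (P : Subgroup G), ∀ b ∈ (P : Subgroup G), Commute a b := fun a ha b hb =>
    congrArg Subtype.val (h.comm ⟨a, ha⟩ ⟨b, hb⟩)
  have hne : (Ap P).Nonempty := Finset.card_pos.1 (by omega)
  set B := H8.bfin (principalBlock M G) with hB
  choose f hf0 hf using fun χ : IrrCharacter G => χ.2.exists_degree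
  have hf0' : ∀ χ, (0 : ℝ) < f χ := fun χ => Nat.cast_pos.2 (hf0 χ)
  set s : IrrCharacter G → ℝ := fun χ => (∑ u ∈ Ap P, (χ : G → ℂ) u).re with hs
  have hs' : ∀ χ : IrrCharacter G, ∑ u ∈ Ap P, (χ : G → ℂ) u = s χ := fun χ => (sum_Ap_real P χ.2).2
  set e := Nat.card (H6.autz (P : Subgroup G)) with he
  set n := (Ap P).card with hn'
  have h1 : ∑ χ ∈ B, s χ ^ 2 = n * (Nat.card P * e) := by
    have h2 : ∑ u ∈ Ap P, ∑ w ∈ Ap P, H6.bker (principalBlock M G) u w = n * (Nat.card P * e) := by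
      rw [Finset.sum_congr rfl fun u hu => F_val hM h (H6.isPPart_self hp.out
        ⟨1, by rw [(mem_Ap.1 hu).2, pow_one]⟩) (mem_Ap.1 hu).2, Finset.sum_const, nsmul_eq_mul]
    simp only [F_eq] at h2
    rw [Finset.sum_comm] at h2
    simp only [← Finset.mul_sum, hs', Complex.ofReal_re, ← pow_two] at h2
    exact_mod_cast h2
  have h2 : n * ((Nat.card P * e : ℝ) * (n - e / 2)) ≤ ∑ χ ∈ B, s χ ^ 3 / f χ := by
    have h3 := Finset.sum_le_sum fun u hu => Finset.sum_le_sum fun g (_ : g ∈ Finset.univ) =>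
      F_ge hM hc hp2 h hinv hu g
    have h4 : ∑ u ∈ Ap P, ∑ g : G, ∑ v ∈ Ap P, ∑ w ∈ Ap P,
        H6.bker (principalBlock M G) (g * v * g⁻¹ * u) w =
        ((Nat.card G * ∑ χ ∈ B, s χ ^ 3 / f χ : ℝ) : ℂ) := by
      simp only [F_eq]
      rw [Finset.sum_congr rfl fun u _ => Finset.sum_comm.trans (Finset.sum_congr rfl fun v _ =>
        Finset.sum_comm), Finset.sum_congr rfl fun u _ => Finset.sum_comm, Finset.sum_comm]
      simp only [← Finset.mul_sum, fun χ : IrrCharacter G => χ.2.sum_conj_mul, ← Finset.sum_mul,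
        ← Finset.sum_div, hs', Complex.ofReal_re, hf]
      push_cast
      rw [Finset.mul_sum]
      exact Finset.sum_congr rfl fun χ _ => by ring
    simp only [← Complex.re_sum] at h3
    rw [h4, Complex.ofReal_re, Finset.sum_const, Finset.sum_const, nsmul_eq_mul, nsmul_eq_mul,
      Finset.card_univ, ← Nat.card_eq_fintype_card, mul_left_comm] at h3
    exact le_of_mul_le_mul_left h3 (Nat.cast_pos.2 Nat.card_pos)
  have h1B : irrOne G ∈ B := H8.mem_bfin.2 H6.irrOne_mem_principal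
  have hs1 : s (irrOne G) = n := by simp [hs, hn']
  have hf1 : f (irrOne G) = 1 := by
    have := hf (irrOne G)
    rw [irrOne_apply] at this
    exact_mod_cast this.symm
  have h3 : ∑ χ ∈ B.erase (irrOne G), 3 * (s χ ^ 3 / f χ) ≤ ∑ χ ∈ B.erase (irrOne G), n * s χ ^ 2 :=
    Finset.sum_le_sum fun χ hχ => by
      have := bound hM hb (H8.mem_bfin.1 (Finset.mem_erase.1 hχ).2) hc hp2 hP hne
        (Finset.mem_erase.1 hχ).1
      rw [hf, Complex.natCast_re] at this
      rw [← mul_div_assoc, div_le_iff₀ (hf0' χ)]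
      nlinarith [mul_le_mul_of_nonneg_left this (sq_nonneg (s χ))]
  rw [← Finset.mul_sum, ← Finset.mul_sum] at h3
  rw [← Finset.add_sum_erase _ _ h1B, hs1] at h1
  rw [← Finset.add_sum_erase _ _ h1B, hs1, hf1] at h2
  obtain ⟨u, hu⟩ := hne
  have he1 : e ≤ n := by rw [he, ← cl_card h hu]; exact Finset.card_filter_le _ _
  have he2 : 2 ≤ e := by
    rw [he, ← cl_card h hu, ← Finset.card_pair (ne_inv_of_order hp2 (mem_Ap.1 hu).2)]
    refine Finset.card_le_card fun v hv => ?_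
    rcases Finset.mem_insert.1 hv with rfl | hv
    · exact Finset.mem_filter.2 ⟨hu, IsConj.refl _⟩
    · rw [Finset.mem_singleton.1 hv]
      exact Finset.mem_filter.2 ⟨inv_mem_Ap hu, hinv u (mem_Ap.1 hu).1⟩
  have hq : n + 1 ≤ Nat.card P := by
    have h0 : (1 : G) ∉ Ap P := fun h => ne_one_of_order (mem_Ap.1 h).2 rfl
    rw [← Finset.card_insert_of_notMem h0, ← Nat.card_eq_finsetCard]
    exact Nat.card_le_card_of_injective (fun x : ↥(insert 1 (Ap P)) => (⟨x, (Finset.mem_insert.1 x.2).elim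
      (fun e => by rw [e]; exact one_mem _) fun h => (mem_Ap.1 h).1⟩ : (P : Subgroup G)))
      fun a b e => Subtype.ext (congrArg Subtype.val e :)
  have h4 : (4 * n * e * Nat.card P : ℝ) ≤ 4 * n ^ 2 + 3 * e ^ 2 * Nat.card P := by
    refine le_of_mul_le_mul_left (a := (n : ℝ)) ?_ (Nat.cast_pos.2 (by omega))
    push_cast at h2
    nlinarith
  have h5 : 4 * n * e * Nat.card P ≤ 4 * n ^ 2 + 3 * e ^ 2 * Nat.card P := by exact_mod_cast h4
  generalize Nat.card P = q at hq h5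
  by_cases h6 : 4 ≤ e
  · nlinarith [Nat.mul_le_mul_left (e * q) he1, Nat.mul_le_mul_left (n * q) h6,
      Nat.mul_le_mul_left n hq]
  · have : e = 2 ∨ e = 3 := by omega
    rcases this with h7 | h7 <;> rw [h7] at h5 <;>
      nlinarith [Nat.mul_le_mul_left n hq, Nat.mul_le_mul_left q hn]

end Block

theorem odd_false {G : Type*} [Group G] [Finite G] [IsSimpleGroup G] (hG : ¬ IsMulCommutative G)
    (hb : HB p G) (hc : HC p G) (hp2 : p ≠ 2) {x : G} (hx : Cz p x) : False := by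
  classical
  haveI := Fintype.ofFinite G
  obtain ⟨P, hP⟩ := (IsPGroup.of_card (n := 1) (G := zpowers x) (by
    rw [Nat.card_zpowers, hx.1, pow_one])).exists_le_sylow
  have hxP := hP (mem_zpowers x)
  obtain ⟨h1, n, hn, h2⟩ := hb.af hp2 hx (case_nonreal hG hb hc hp2 hx) P hxP
  have hinv : ∀ y ∈ (P : Subgroup G), IsConj y y⁻¹ := fun y hy => isConj_iff.2 ⟨n, h2 y hy⟩
  have hxA : x ∈ Ap P := mem_Ap.2 ⟨hxP, hx.1⟩
  by_cases h : ∀ w ∈ Ap P, w ∈ zpowers x
  · refine false_of_pairs hp2 hx.1 hb (fun g => ?_) (c₀ := -1) (g₀ := n) (fun e => ?_) ?_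
    · have oy : orderOf (g * x * g⁻¹) = p := by rw [orderOf_cj, hx.1]
      obtain ⟨w, hw, h3, h4⟩ := hc.pairP h1 hxP hx.1 oy
      have ow : orderOf w = p := by rw [← H6.orderOf_eq_of_isConj h3, oy]
      obtain ⟨k, hk, -, h5⟩ := pair_cyc hx.1 ow (h w (mem_Ap.2 ⟨hw, ow⟩)) h4
      exact ⟨k, hk, h5⟩
    · have : ((2 : ℕ) : ZMod p) = 0 := by push_cast; linear_combination -e
      exact hp2 ((Nat.prime_dvd_prime_iff_eq hp.out Nat.prime_two).1 ((ZMod.natCast_eq_zero_iff _ _).1 this))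
    · rw [h2 x hxP, ← zero_sub, pw_sub (pow_of_mem hxA), pw_zero, one_mul, ← Nat.cast_one,
        pw_natCast (pow_of_mem hxA), pow_one]
  · push Not at h
    obtain ⟨w, hw, hwx⟩ := h
    obtain ⟨M, hM⟩ := H6.exists_isPModular hp.out
    haveI := hM.2.1
    refine count hM hb hc hp2 (hb.af_of_comm P h1) hinv ?_
    have e1 : x ≠ w := fun e => hwx (e ▸ mem_zpowers x)
    have e2 : x ≠ w⁻¹ := fun e => hwx (by rw [← inv_inv w, ← e]; exact inv_mem (mem_zpowers x))
    have e3 : x⁻¹ ≠ w := fun e => hwx (e ▸ inv_mem (mem_zpowers x))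
    have e4 : x⁻¹ ≠ w⁻¹ := fun e => e1 (inv_injective e)
    have e5 := ne_inv_of_order hp2 hx.1
    have e6 := ne_inv_of_order hp2 (mem_Ap.1 hw).2
    rw [← Finset.card_eq_four.2 ⟨x, x⁻¹, w, w⁻¹, e5, e1, e2, e3, e4, e6, rfl⟩]
    refine Finset.card_le_card fun v hv => ?_
    simp only [Finset.mem_insert, Finset.mem_singleton] at hv
    rcases hv with rfl | rfl | rfl | rfl
    exacts [hxA, inv_mem_Ap hxA, hw, inv_mem_Ap hw]

end Cfsg.Agent.FG
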